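import Cfsg.Agent.H475.KGV.Glue
import Cfsg.Agent.H475.KGV.S4532Of
import Cfsg.Agent.H415.KGL.F2

/-!
# S4533 and S4532 from the k(GV) theorem
-/

set_option autoImplicit false

open Cfsg

namespace Cfsg.Agent.H475.KGV

universe u

/-- The statement of S4533. -/
theorem s4533 (hM : Cfsg.Agent.H644.KGV.MainKGV.{u}) {X : Type u} [Group X] [Finite X] [Nontrivial X]
    (p : ℕ) [Fact p.Prime]
    (hsolv : Cfsg.IsPSolvable p X) (hcore : Cfsg.pPrimeCore p X = ⊥) (r : ℕ)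
    (hr : Cfsg.SectionalPRankLE p r ↥(Cfsg.pCore p X)) :
    (∀ T : Subgroup X, (Nat.card T).Coprime p → (∃ m : ℕ, T.index = p ^ m) →
      Nat.card (ConjClasses T) < p ^ r) ∧
    Nat.card {C : ConjClasses X // ∃ g : X, ConjClasses.mk g = C ∧ ¬ p ∣ orderOf g} < p ^ r :=
  H415.KGL.F2.s4533_of (fun p _ V _ _ _ _ => bd_of_main hM p V) p hsolv hcore r hr

theorem pRegBound (hM : Cfsg.Agent.H644.KGV.MainKGV.{u}) : PRegBound.{u} :=
  fun _ _ _ _ p _ hsolv hcore r hr => (s4533 hM p hsolv hcore r hr).2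

/-- The statement of S4532. -/
theorem s4532 (h : Cfsg.Agent.H644.KGV.MainKGV.{u}) {G : Type u} [Group G] [Finite G] (p : ℕ)
    [Fact p.Prime] (hsolv : Cfsg.IsPSolvable p G) (M : Ideal Cfsg.AlgInt) (hM : Cfsg.IsPModular p M)
    (B : Set (Cfsg.IrrCharacter G)) (hB : Cfsg.IsPBlock M B) (D : Subgroup G)
    (hD : Cfsg.IsDefectGroup p M B D) (hD1 : D ≠ ⊥) (r : ℕ)
    (hr : Cfsg.SectionalPRankLE p r D) : Cfsg.blockRank p B < p ^ r :=
  s4532_of (pRegBound h) p hsolv M hM B hB D hD hD1 r hr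

end Cfsg.Agent.H475.KGV
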